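import Groth.Agent.Ega4fib.H159.SurjDim
import Groth.Agent.Ega4fib.H113.DimFibre
import Groth.Agent.Ega43.OpenAt
import Groth.Agent.Fdesc.QuasiCompactTop
import Groth.Agent.Flat2D.PbStalk

/-!
# Openness at the generic points of the fibre and the dimension formula

* `surjective_comap_stalkMap`: if every neighbourhood of `x` meets the fibres over all
  generizations of `f x`, then `Spec O_{X,x} → Spec O_{Y,f x}` is surjective.
* `ringKrullDim_le_of_isOpenAt`: if moreover `x` is maximal in its fibre, then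
  `dim O_{Y,f x} ≤ dim O_{X,x}`.
* `coheight_eq_add_of_isOpenAt`: if `f` is open at the generic points of the components of
  `X_{f x}` through `x`, then `dim O_{X,x} = dim O_{Y,f x} + dim O_{X_{f x},x}`.
-/

set_option autoImplicit false
universe u

open AlgebraicGeometry CategoryTheory Limits TopologicalSpace Order IsLocalRing

namespace Groth.Agent.Ega4fib.H159.OpenAtDim

open Groth.Agent.Ega43.OpenAt Groth.Agent.Ega4fib.H113.DimFibre

/-- If every neighbourhood of `x` meets the fibres over all generizations of `f x`, then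
`Spec O_{X,x} → Spec O_{Y,f x}` is surjective. -/
theorem surjective_comap_stalkMap {X Y : Scheme.{u}} (f : X ⟶ Y) [IsLocallyNoetherian Y] (x : X)
    (H : GenAt f x) : Function.Surjective (PrimeSpectrum.comap (f.stalkMap x).hom) := by
  intro p
  obtain ⟨y', hy'⟩ : ∃ y' : Y, Y.fromSpecStalk (f x) p = y' := ⟨_, rfl⟩
  have hp : y' ⤳ f x := by
    have : y' ∈ Set.range (Y.fromSpecStalk (f x)) := ⟨p, hy'⟩
    rw [Scheme.range_fromSpecStalk] at this
    exact this
  have hcl : x ∈ closure (Set.range (f.fiberι y').base) := by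
    have h0 : Set.range (f.fiberι y').base = f ⁻¹' {y'} := f.range_fiberι y'
    rw [h0, mem_closure_iff]
    intro o ho hxo
    obtain ⟨z, hz, hzy⟩ := H ⟨o, ho⟩ hxo y' hp
    exact ⟨z, hz, hzy⟩
  have hqc : QuasiCompact (f.fiberι y') :=
    inferInstanceAs (QuasiCompact (pullback.fst f (Y.fromSpecResidueField y')))
  obtain ⟨w, hw⟩ := Groth.Agent.Fdesc.QuasiCompactTop.exists_specializes_of_mem_closure_range
    (f.fiberι y') x hcl
  have hfw : f (f.fiberι y' w) = y' := by
    have : f.fiberι y' w ∈ Set.range (f.fiberι y') := ⟨w, rfl⟩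
    rw [f.range_fiberι] at this
    exact this
  obtain ⟨q, hq⟩ : (f.fiberι y').base w ∈ Set.range (X.fromSpecStalk x) := by
    rw [Scheme.range_fromSpecStalk]
    exact hw
  refine ⟨q, ?_⟩
  apply (Y.fromSpecStalk (f x)).isEmbedding.injective
  rw [hy', ← hfw]
  have h2 := congrArg (fun φ => φ q) (congrArg (fun φ => φ.base)
    (Scheme.SpecMap_stalkMap_fromSpecStalk (f := f) (x := x)))
  refine Eq.trans h2 ?_
  show f (X.fromSpecStalk x q) = _
  rw [hq]

/-- If `x` is a maximal point of its fibre, then `m_x` is the only prime of `O_{X,x}` over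
`m_{f x}`. -/
theorem eq_maximalIdeal_of_comap {X Y : Scheme.{u}} (f : X ⟶ Y) (x : X)
    (H : ∀ z : X, z ⤳ x → f z = f x → z = x) (q : Ideal (X.presheaf.stalk x)) (hq : q.IsPrime)
    (hqm : q.comap (f.stalkMap x).hom = maximalIdeal (Y.presheaf.stalk (f x))) :
    q = maximalIdeal (X.presheaf.stalk x) := by
  have h1 : X.fromSpecStalk x ⟨q, hq⟩ ⤳ x := by
    have : X.fromSpecStalk x ⟨q, hq⟩ ∈ Set.range (X.fromSpecStalk x) := ⟨_, rfl⟩
    rw [Scheme.range_fromSpecStalk] at this
    exact this
  have h2 : f (X.fromSpecStalk x ⟨q, hq⟩) = f x := by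
    have h3 := congrArg (fun φ => φ (⟨q, hq⟩ : PrimeSpectrum _)) (congrArg (fun φ => φ.base)
      (Scheme.SpecMap_stalkMap_fromSpecStalk (f := f) (x := x)))
    have h4 : PrimeSpectrum.comap (f.stalkMap x).hom ⟨q, hq⟩ =
        closedPoint (Y.presheaf.stalk (f x)) := PrimeSpectrum.ext hqm
    have h5 : Y.fromSpecStalk (f x) (PrimeSpectrum.comap (f.stalkMap x).hom ⟨q, hq⟩) = f x := by
      rw [h4]
      exact Scheme.fromSpecStalk_closedPoint
    exact h3.symm.trans h5
  have h3 := H _ h1 h2
  have h4 : X.fromSpecStalk x ⟨q, hq⟩ = X.fromSpecStalk x (closedPoint (X.presheaf.stalk x)) := by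
    rw [h3, Scheme.fromSpecStalk_closedPoint]
  have h5 := (X.fromSpecStalk x).isEmbedding.injective h4
  exact congrArg PrimeSpectrum.asIdeal h5

theorem ringKrullDim_le_of_isOpenAt {X Y : Scheme.{u}} (f : X ⟶ Y) [IsLocallyNoetherian X]
    [IsLocallyNoetherian Y] (x : X) (hop : EGA43.IsOpenAt f x)
    (H : ∀ z : X, z ⤳ x → f z = f x → z = x) :
    ringKrullDim (Y.presheaf.stalk (f x)) ≤ ringKrullDim (X.presheaf.stalk x) :=
  SurjDim.ringKrullDim_le_of_surjective_of_closed (f.stalkMap x).hom
    (surjective_comap_stalkMap f x (genAt_of_isOpenAt f x hop))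
    (fun q hq hqm => eq_maximalIdeal_of_comap f x H q hq hqm)

theorem coheight_le_of_isOpenAt {X Y : Scheme.{u}} (f : X ⟶ Y) [IsLocallyNoetherian X]
    [IsLocallyNoetherian Y] (x : X) (hop : EGA43.IsOpenAt f x)
    (H : ∀ z : X, z ⤳ x → f z = f x → z = x) :
    Order.coheight (f x) ≤ Order.coheight x := by
  have h := ringKrullDim_le_of_isOpenAt f x hop H
  rw [ringKrullDim_stalk_eq_coheight, ringKrullDim_stalk_eq_coheight] at h
  exact_mod_cast h

/-- If `f` is open at the generic points of the components of the fibre over `y` through `z`, then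
`dim O_{Y,y} + dim O_{X_y,z} ≤ dim O_{X,z}`. -/
theorem add_le_coheight_of_isOpenAt {X Y : Scheme.{u}} (f : X ⟶ Y) [IsLocallyNoetherian X]
    [IsLocallyNoetherian Y] (y : Y) (n : ℕ) (z : f.fiber y)
    (H : ∀ w : f.fiber y, w ⤳ z → (∀ w' : f.fiber y, w' ⤳ w → w' = w) →
      EGA43.IsOpenAt f (f.fiberι y w)) (hz : Order.coheight z = n) :
    Order.coheight y + n ≤ Order.coheight (f.fiberι y z) := by
  have hι : ∀ w : f.fiber y, f (f.fiberι y w) = y := fun w => by
    have : f.fiberι y w ∈ Set.range (f.fiberι y) := ⟨w, rfl⟩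
    rw [f.range_fiberι] at this
    exact this
  induction n generalizing z with
  | zero =>
    have hmax : ∀ w' : f.fiber y, w' ⤳ z → w' = z := by
      intro w' hw'
      have h1 : IsMax z := by
        rw [← Order.coheight_eq_zero]
        exact_mod_cast hz
      have h2 : z ≤ w' := hw'
      have h3 : w' ≤ z := h1 h2
      exact hw'.antisymm h3 |>.eq
    have hop := H z specializes_rfl hmax
    have h1 := coheight_le_of_isOpenAt f (f.fiberι y z) hop ?_
    · rw [hι] at h1
      simpa using h1
    · intro x' hx' hfx'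
      rw [hι] at hfx'
      obtain ⟨w, rfl⟩ : x' ∈ Set.range (f.fiberι y) := by
        rw [f.range_fiberι]
        exact hfx'
      have h2 : w ⤳ z := ((f.fiberι y).isEmbedding.isInducing.specializes_iff).1 hx'
      rw [hmax w h2]
  | succ n ih =>
    rw [Nat.cast_add, Nat.cast_one, Order.coheight_eq_coe_add_one_iff] at hz
    obtain ⟨-, ⟨w, hw, hwn⟩, -⟩ := hz
    have hwz : w ⤳ z := hw.le
    have h1 := ih w (fun w' hw' hm => H w' (hw'.trans hwz) hm) hwn
    have h2 : Order.coheight (f.fiberι y w) + 1 ≤ Order.coheight (f.fiberι y z) :=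
      Order.coheight_add_one_le (fiberι_strictMono f y hw)
    calc Order.coheight y + ((n + 1 : ℕ) : ℕ∞) = (Order.coheight y + n) + 1 := by
          rw [Nat.cast_add, Nat.cast_one, add_assoc]
      _ ≤ Order.coheight (f.fiberι y w) + 1 := add_le_add h1 le_rfl
      _ ≤ _ := h2

/-- If `f` is open at the generic points of the components of `X_{f x}` through `x`, then
`dim O_{X,x} = dim O_{Y,f x} + dim O_{X_{f x},x}`. -/
theorem coheight_eq_add_of_isOpenAt {X Y : Scheme.{u}} (f : X ⟶ Y) [IsLocallyNoetherian Y]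
    [LocallyOfFiniteType f] (x : X)
    (H : ∀ z : f.fiber (f x), z ⤳ f.asFiber x → (∀ z' : f.fiber (f x), z' ⤳ z → z' = z) →
      EGA43.IsOpenAt f (f.fiberι (f x) z)) :
    Order.coheight x = Order.coheight (f x) + Order.coheight (f.asFiber x) := by
  have hX : IsLocallyNoetherian X := LocallyOfFiniteType.isLocallyNoetherian f
  refine le_antisymm (coheight_le_add_fiber f x) ?_
  have hft : LocallyOfFiniteType (f.fiberToSpecResidueField (f x)) :=
    inferInstanceAs (LocallyOfFiniteType (pullback.snd f (Y.fromSpecResidueField (f x))))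
  have hF : IsLocallyNoetherian (f.fiber (f x)) :=
    LocallyOfFiniteType.isLocallyNoetherian (f.fiberToSpecResidueField (f x))
  obtain ⟨n, hn⟩ : ∃ n : ℕ, Order.coheight (f.asFiber x) = n :=
    ENat.ne_top_iff_exists.1 (coheight_ne_top (f.asFiber x)) |>.imp fun _ h => h.symm
  have h3 := add_le_coheight_of_isOpenAt f (f x) n (f.asFiber x) H hn
  rw [f.fiberι_asFiber] at h3
  rw [hn]
  exact h3

end Groth.Agent.Ega4fib.H159.OpenAtDim
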