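import Mathlib.RingTheory.Ideal.KrullsHeightTheorem
import Mathlib.RingTheory.KrullDimension.NonZeroDivisors
import Mathlib.RingTheory.KrullDimension.Regular

/-!
# Dimension and surjectivity on spectra

For a local homomorphism `A → B` of Noetherian local rings which is surjective on spectra and such
that the closed point of `Spec B` is the only one over the closed point of `Spec A`,
`dim A ≤ dim B`.
-/

set_option autoImplicit false

namespace Groth.Agent.Ega4fib.H159.SurjDim

universe u v

/-- If `b` lies in no minimal prime of `B`, then `dim B/b + 1 ≤ dim B`. -/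
theorem ringKrullDim_quotient_succ_le {B : Type v} [CommRing B] {b : B}
    (hb : ∀ p ∈ minimalPrimes B, b ∉ p) :
    ringKrullDim (B ⧸ Ideal.span {b}) + 1 ≤ ringKrullDim B := by
  by_cases hr' : Ideal.span {b} = ⊤
  · rw [hr', ringKrullDim_eq_bot_of_subsingleton]
    simp
  have : Nonempty (PrimeSpectrum.zeroLocus (R := B) (Ideal.span {b})) := by
    rwa [Set.nonempty_coe_sort, Set.nonempty_iff_ne_empty, ne_eq,
      PrimeSpectrum.zeroLocus_empty_iff_eq_top]
  have := Ideal.Quotient.nontrivial_iff.mpr hr'
  have := (Ideal.Quotient.mk (Ideal.span {b})).domain_nontrivial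
  rw [ringKrullDim_quotient, Order.krullDim_eq_iSup_length, ringKrullDim,
    Order.krullDim_eq_iSup_length, ← WithBot.coe_one, ← WithBot.coe_add,
    ENat.iSup_add, WithBot.coe_le_coe, iSup_le_iff]
  intro l
  obtain ⟨p, hp, hp'⟩ := Ideal.exists_minimalPrimes_le (J := l.head.1.asIdeal) bot_le
  let p' : PrimeSpectrum B := ⟨p, hp.1.1⟩
  have hp' : p' < l.head := lt_of_le_of_ne hp' fun h ↦ hb p hp <|
    show b ∈ p'.asIdeal by
      have h1 := l.head.2
      rw [← h, PrimeSpectrum.mem_zeroLocus] at h1
      exact h1 (Ideal.mem_span_singleton_self b)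
  refine le_trans ?_ (le_iSup _ ((l.map Subtype.val (fun _ _ ↦ id)).cons p' hp'))
  simp

theorem aux (n : ℕ) : ∀ (A : Type u) (B : Type v) [CommRing A] [CommRing B] [IsLocalRing A]
    [IsNoetherianRing A] [IsLocalRing B] [IsNoetherianRing B] (φ : A →+* B)
    (_ : Function.Surjective (PrimeSpectrum.comap φ))
    (_ : ∀ q : Ideal B, q.IsPrime → q.comap φ = IsLocalRing.maximalIdeal A →
      q = IsLocalRing.maximalIdeal B), (n : WithBot ℕ∞) ≤ ringKrullDim A →
      (n : WithBot ℕ∞) ≤ ringKrullDim B := by
  induction n with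
  | zero =>
    intro A B _ _ _ _ _ _ φ _ _ _
    exact_mod_cast ringKrullDim_nonneg_of_nontrivial
  | succ n ih =>
    intro A B _ _ _ _ _ _ φ hsurj hclosed hdim
    -- no minimal prime of `B` lies over the maximal ideal of `A`
    have hmin : ∀ q ∈ minimalPrimes B, q.comap φ ≠ IsLocalRing.maximalIdeal A := by
      intro q hq hqA
      have hqp : q.IsPrime := hq.1.1
      have h1 := hclosed q hqp hqA
      -- then `Spec B` is a point
      have h2 : ∀ p : PrimeSpectrum A, p.asIdeal = IsLocalRing.maximalIdeal A := by
        intro p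
        obtain ⟨r, rfl⟩ := hsurj p
        have h3 : r.asIdeal = IsLocalRing.maximalIdeal B := by
          refine le_antisymm (IsLocalRing.le_maximalIdeal r.2.ne_top) ?_
          rw [← h1]
          exact hq.2 ⟨r.2, bot_le⟩ (by rw [h1]; exact IsLocalRing.le_maximalIdeal r.2.ne_top)
        rw [PrimeSpectrum.comap_asIdeal, h3, ← h1, hqA]
      have h4 : Subsingleton (PrimeSpectrum A) :=
        ⟨fun a b => PrimeSpectrum.ext ((h2 a).trans (h2 b).symm)⟩
      have h5 : ringKrullDim A ≤ 0 := Order.krullDim_nonpos_of_subsingleton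
      have h6 := hdim.trans h5
      have : ((n + 1 : ℕ) : WithBot ℕ∞) ≤ ((0 : ℕ) : WithBot ℕ∞) := by simpa using h6
      have : n + 1 ≤ 0 := by exact_mod_cast this
      omega
    -- prime avoidance
    have hfin : (minimalPrimes B).Finite := minimalPrimes.finite_of_isNoetherianRing B
    obtain ⟨a, haA, ha⟩ : ∃ a ∈ IsLocalRing.maximalIdeal A, ∀ q ∈ minimalPrimes B, φ a ∉ q := by
      by_contra hcon
      push Not at hcon
      have hsub : ((IsLocalRing.maximalIdeal A : Ideal A) : Set A) ⊆
          ⋃ q ∈ minimalPrimes B, (Ideal.comap φ q : Set A) := by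
        intro a ha
        obtain ⟨q, hq, haq⟩ := hcon a ha
        simp only [Set.mem_iUnion]
        exact ⟨q, hq, haq⟩
      rw [Ideal.subset_union_prime_finite hfin ⊥ ⊥ (fun q hq _ _ => by
        have : q.IsPrime := hq.1.1
        exact Ideal.comap_isPrime φ q)] at hsub
      obtain ⟨q, hq', hle⟩ := hsub
      have hqp : q.IsPrime := hq'.1.1
      exact hmin q hq' (le_antisymm (IsLocalRing.le_maximalIdeal
        (Ideal.comap_isPrime φ q).ne_top) hle)
    -- the closed point of `Spec B` lies over that of `Spec A`
    have hcl : (IsLocalRing.maximalIdeal B).comap φ = IsLocalRing.maximalIdeal A := by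
      obtain ⟨q, hq⟩ := hsurj ⟨IsLocalRing.maximalIdeal A, inferInstance⟩
      have h1 : q.asIdeal.comap φ = IsLocalRing.maximalIdeal A := congrArg PrimeSpectrum.asIdeal hq
      rw [← hclosed _ q.2 h1, h1]
    let I : Ideal A := Ideal.span {a}
    let J : Ideal B := Ideal.span {φ a}
    have hI : I ≤ IsLocalRing.maximalIdeal A := by
      rw [Ideal.span_singleton_le_iff_mem]; exact haA
    have hJ : J ≤ IsLocalRing.maximalIdeal B := by
      rw [Ideal.span_singleton_le_iff_mem]
      have : a ∈ (IsLocalRing.maximalIdeal B).comap φ := by rw [hcl]; exact haA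
      exact this
    have hnI : Nontrivial (A ⧸ I) := Ideal.Quotient.nontrivial_iff.2 fun h =>
      (IsLocalRing.maximalIdeal.isMaximal A).ne_top (top_le_iff.1 (h ▸ hI))
    have hnJ : Nontrivial (B ⧸ J) := Ideal.Quotient.nontrivial_iff.2 fun h =>
      (IsLocalRing.maximalIdeal.isMaximal B).ne_top (top_le_iff.1 (h ▸ hJ))
    have hlI : IsLocalRing (A ⧸ I) :=
      IsLocalRing.of_surjective' (Ideal.Quotient.mk _) Ideal.Quotient.mk_surjective
    have hlJ : IsLocalRing (B ⧸ J) :=
      IsLocalRing.of_surjective' (Ideal.Quotient.mk _) Ideal.Quotient.mk_surjective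
    have hIJ : I ≤ J.comap φ := by
      rw [Ideal.span_singleton_le_iff_mem]
      exact Ideal.mem_span_singleton_self (φ a)
    let ψ : A ⧸ I →+* B ⧸ J := Ideal.quotientMap J φ hIJ
    have hψ : ψ.comp (Ideal.Quotient.mk I) = (Ideal.Quotient.mk J).comp φ :=
      Ideal.quotientMap_comp_mk hIJ
    have hmA : (IsLocalRing.maximalIdeal (A ⧸ I)).comap (Ideal.Quotient.mk I) =
        IsLocalRing.maximalIdeal A := by
      have : ((IsLocalRing.maximalIdeal (A ⧸ I)).comap (Ideal.Quotient.mk I)).IsMaximal :=
        Ideal.comap_isMaximal_of_surjective _ Ideal.Quotient.mk_surjective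
      exact IsLocalRing.eq_maximalIdeal this
    have hmB : (IsLocalRing.maximalIdeal (B ⧸ J)).comap (Ideal.Quotient.mk J) =
        IsLocalRing.maximalIdeal B := by
      have : ((IsLocalRing.maximalIdeal (B ⧸ J)).comap (Ideal.Quotient.mk J)).IsMaximal :=
        Ideal.comap_isMaximal_of_surjective _ Ideal.Quotient.mk_surjective
      exact IsLocalRing.eq_maximalIdeal this
    have h1 : ((n : ℕ) : WithBot ℕ∞) ≤ ringKrullDim (B ⧸ J) := by
      refine ih (A ⧸ I) (B ⧸ J) ψ ?_ ?_ ?_
      · -- surjectivity
        intro p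
        obtain ⟨q, hq⟩ := hsurj (PrimeSpectrum.comap (Ideal.Quotient.mk I) p)
        have hq' : q.asIdeal.comap φ = p.asIdeal.comap (Ideal.Quotient.mk I) :=
          congrArg PrimeSpectrum.asIdeal hq
        have hJq : J ≤ q.asIdeal := by
          rw [Ideal.span_singleton_le_iff_mem]
          have : a ∈ q.asIdeal.comap φ := by
            rw [hq', Ideal.mem_comap, Ideal.Quotient.eq_zero_iff_mem.2
              (Ideal.mem_span_singleton_self a)]
            exact zero_mem _
          exact this
        refine ⟨⟨q.asIdeal.map (Ideal.Quotient.mk J), Ideal.isPrime_map_quotientMk_of_isPrime hJq⟩,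
          PrimeSpectrum.ext ?_⟩
        apply Ideal.comap_injective_of_surjective (Ideal.Quotient.mk I) Ideal.Quotient.mk_surjective
        show ((q.asIdeal.map (Ideal.Quotient.mk J)).comap ψ).comap (Ideal.Quotient.mk I) =
          p.asIdeal.comap (Ideal.Quotient.mk I)
        rw [Ideal.comap_comap, hψ, ← Ideal.comap_comap,
          Ideal.comap_map_of_surjective _ Ideal.Quotient.mk_surjective, ← hq']
        congr 1
        rw [← RingHom.ker_eq_comap_bot, Ideal.mk_ker, sup_eq_left]
        exact hJq
      · intro q hq hqA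
        have h3 : (q.comap (Ideal.Quotient.mk J)).comap φ = IsLocalRing.maximalIdeal A := by
          rw [Ideal.comap_comap, ← hψ, ← Ideal.comap_comap, hqA, hmA]
        have h4 := hclosed _ (Ideal.comap_isPrime _ _) h3
        apply Ideal.comap_injective_of_surjective (Ideal.Quotient.mk J) Ideal.Quotient.mk_surjective
        rw [h4, hmB]
      · have h5 : ringKrullDim A ≤ ringKrullDim (A ⧸ I) + 1 := by
          have := ringKrullDim_le_ringKrullDim_quotient_add_encard ({a} : Set A) (by
            intro x hx
            rw [Set.mem_singleton_iff] at hx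
            subst hx
            rw [IsLocalRing.ringJacobson_eq_maximalIdeal]
            exact haA)
          rw [Set.encard_singleton] at this
          exact this
        have h6 := hdim.trans h5
        rw [Nat.cast_add, Nat.cast_one] at h6
        exact ENat.WithBot.add_le_add_one_right_iff.1 h6
    calc ((n + 1 : ℕ) : WithBot ℕ∞) = (n : WithBot ℕ∞) + 1 := by rw [Nat.cast_add, Nat.cast_one]
      _ ≤ ringKrullDim (B ⧸ J) + 1 := by gcongr
      _ ≤ ringKrullDim B := ringKrullDim_quotient_succ_le ha

/-- For a homomorphism `A → B` of Noetherian local rings which is surjective on spectra and such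
that the closed point of `Spec B` is the only one over the closed point of `Spec A`,
`dim A ≤ dim B`. -/
theorem ringKrullDim_le_of_surjective_of_closed {A : Type u} {B : Type v} [CommRing A] [CommRing B]
    [IsLocalRing A] [IsNoetherianRing A] [IsLocalRing B] [IsNoetherianRing B] (φ : A →+* B)
    (hs : Function.Surjective (PrimeSpectrum.comap φ))
    (hc : ∀ q : Ideal B, q.IsPrime → q.comap φ = IsLocalRing.maximalIdeal A →
      q = IsLocalRing.maximalIdeal B) : ringKrullDim A ≤ ringKrullDim B := by
  obtain ⟨n, hn⟩ : ∃ n : ℕ, ringKrullDim A = n := by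
    have h1 := ringKrullDim_lt_top (R := A)
    have h2 := ringKrullDim_ne_bot (R := A)
    generalize ringKrullDim A = d at h1 h2
    induction d with
    | bot => exact absurd rfl h2
    | coe d =>
      induction d with
      | top => exact absurd h1 (by simp)
      | coe d => exact ⟨d, rfl⟩
  rw [hn]
  exact aux n A B φ hs hc hn.ge

end Groth.Agent.Ega4fib.H159.SurjDim
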